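import Mathlib.RingTheory.TensorProduct.Basic
import Mathlib.RingTheory.TensorProduct.Maps
import Mathlib.RingTheory.IsTensorProduct
import Mathlib.RingTheory.AdicCompletion.Algebra
import Mathlib.RingTheory.AdicCompletion.Completeness
import Mathlib.RingTheory.AdicCompletion.Functoriality
import Mathlib.RingTheory.LocalRing.ResidueField.Basic
import Groth.Agent.FormalA.AdicFin

/-!
# Completed base changes `C ⊗̂_k k'`
-/

set_option autoImplicit false
universe u

open TensorProduct

namespace Groth.Agent.Ega4late.H526.CBC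

section Def

variable (k k' : Type u) {C : Type u} [Field k] [Field k'] [Algebra k k'] [CommRing C]
  [Algebra k C] (I : Ideal C) (C' : Type u) [CommRing C'] [Algebra k C'] [Algebra C C']
  [Algebra k' C'] [IsScalarTower k C C'] [IsScalarTower k k' C']

/-- The canonical map `C ⊗[k] k' → C'`. -/
noncomputable abbrev can (C : Type u) [CommRing C] [Algebra k C] (C' : Type u) [CommRing C']
    [Algebra k C'] [Algebra C C'] [Algebra k' C'] [IsScalarTower k C C'] [IsScalarTower k k' C'] :
    C ⊗[k] k' →ₐ[k] C' :=
  Algebra.TensorProduct.productMap (IsScalarTower.toAlgHom k C C') (IsScalarTower.toAlgHom k k' C')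

/-- `C'` is a completed base change of `(C, I)` along `k → k'`: it is complete for the topology
defined by `I`, and has the same quotients as `C ⊗[k] k'` modulo powers of `I`. -/
structure IsCBC : Prop where
  complete : IsAdicComplete (I.map (algebraMap C C')) C'
  surj : ∀ (n : ℕ) (y : C'), ∃ x : C ⊗[k] k', y - can k k' C C' x ∈ (I.map (algebraMap C C')) ^ n
  inj : ∀ (n : ℕ) (x : C ⊗[k] k'), can k k' C C' x ∈ (I.map (algebraMap C C')) ^ n →
    x ∈ (I.map (algebraMap C (C ⊗[k] k'))) ^ n

theorem can_includeLeft (c : C) : can k k' C C' (c ⊗ₜ 1) = algebraMap C C' c := by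
  simp [can]

theorem can_includeRight (c : k') : can k k' C C' (1 ⊗ₜ c) = algebraMap k' C' c := by
  simp [can]

theorem can_algebraMap (c : C) : can k k' C C' (algebraMap C (C ⊗[k] k') c) = algebraMap C C' c :=
  can_includeLeft k k' C' c

theorem map_can : (I.map (algebraMap C (C ⊗[k] k'))).map
    (can k k' C C').toRingHom = I.map (algebraMap C C') := by
  rw [Ideal.map_map]
  congr 1
  ext c
  exact can_includeLeft k k' C' c

end Def

section Generic

variable {R : Type*} [CommRing R] (J : Ideal R)

theorem mem_pow_map_iff (hJ : J.FG) (n : ℕ) (y : AdicCompletion J R) :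
    y ∈ (J.map (algebraMap R (AdicCompletion J R))) ^ n ↔ AdicCompletion.evalₐ J n y = 0 := by
  have hker : ((J.map (algebraMap R (AdicCompletion J R))) ^ n).restrictScalars R =
      (J ^ n • ⊤ : Submodule R (AdicCompletion J R)) := by
    rw [← Ideal.map_pow]
    exact (Ideal.smul_top_eq_map _).symm
  rw [← Submodule.restrictScalars_mem R, hker,
    AdicCompletion.pow_smul_top_eq_ker_eval hJ, LinearMap.mem_ker]
  have h : (J ^ n • ⊤ : Ideal R) = J ^ n := by ext x; simp
  constructor
  · intro h0
    have h1 := congrArg (Ideal.quotientEquivAlgOfEq R h) h0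
    rw [map_zero] at h1
    exact h1
  · intro h0
    have h1 : Ideal.quotientEquivAlgOfEq R h (AdicCompletion.eval J _ n y) =
      Ideal.quotientEquivAlgOfEq R h 0 := by
      rw [map_zero]; exact h0
    exact (Ideal.quotientEquivAlgOfEq R h).injective h1

theorem isAdicComplete_map (hJ : J.FG) :
    IsAdicComplete (J.map (algebraMap R (AdicCompletion J R))) (AdicCompletion J R) :=
  (IsAdicComplete.map_algebraMap_iff _ _).mpr (AdicCompletion.isAdicComplete hJ)

end Generic

section Completion

variable (k k' : Type u) {C : Type u} [Field k] [Field k'] [Algebra k k'] [CommRing C]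
  [Algebra k C] (I : Ideal C)

attribute [local instance] Algebra.TensorProduct.rightAlgebra

/-- The completed base change. -/
abbrev Cpl : Type u := AdicCompletion (I.map (Algebra.TensorProduct.includeLeft :
  C →ₐ[k] C ⊗[k] k')) (C ⊗[k] k')

instance : IsScalarTower k C (Cpl k k' I) :=
  IsScalarTower.of_algebraMap_eq fun x => by
    rw [AdicCompletion.algebraMap_apply, AdicCompletion.algebraMap_apply,
      IsScalarTower.algebraMap_apply k C (C ⊗[k] k')]

instance : IsScalarTower k k' (Cpl k k' I) :=
  IsScalarTower.of_algebraMap_eq fun x => by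
    rw [AdicCompletion.algebraMap_apply, AdicCompletion.algebraMap_apply,
      IsScalarTower.algebraMap_apply k k' (C ⊗[k] k')]

instance : IsScalarTower C (C ⊗[k] k') (Cpl k k' I) :=
  IsScalarTower.of_algebraMap_eq fun _ => rfl

instance : IsScalarTower k' (C ⊗[k] k') (Cpl k k' I) :=
  IsScalarTower.of_algebraMap_eq fun _ => rfl

theorem can_eq (x : C ⊗[k] k') : can k k' C (Cpl k k' I) x =
    algebraMap (C ⊗[k] k') (Cpl k k' I) x := by
  induction x with
  | zero => simp
  | add x y hx hy => rw [map_add, map_add, hx, hy]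
  | tmul x y =>
    have h1 : x ⊗ₜ[k] y = (x ⊗ₜ 1) * (1 ⊗ₜ y) := by simp
    rw [h1, map_mul, map_mul, can_includeLeft, can_includeRight]
    rfl

theorem map_eq : I.map (algebraMap C (Cpl k k' I)) =
    (I.map (algebraMap C (C ⊗[k] k'))).map (algebraMap (C ⊗[k] k') (Cpl k k' I)) := by
  rw [Ideal.map_map]
  rfl

theorem mem_pow_iff (hI : I.FG) (n : ℕ) (y : Cpl k k' I) :
    y ∈ (I.map (algebraMap C (Cpl k k' I))) ^ n ↔ AdicCompletion.evalₐ _ n y = 0 := by
  have hJ : (I.map (Algebra.TensorProduct.includeLeft : C →ₐ[k] C ⊗[k] k')).FG := hI.map _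
  rw [map_eq]
  exact mem_pow_map_iff _ hJ n y

theorem isCBC_cpl (hI : I.FG) : IsCBC k k' I (Cpl k k' I) := by
  have hJ : (I.map (Algebra.TensorProduct.includeLeft : C →ₐ[k] C ⊗[k] k')).FG := hI.map _
  constructor
  · rw [map_eq]
    exact isAdicComplete_map _ hJ
  · intro n y
    obtain ⟨x, hx⟩ := Ideal.Quotient.mk_surjective (AdicCompletion.evalₐ _ n y)
    refine ⟨x, ?_⟩
    rw [mem_pow_iff k k' I hI, map_sub, can_eq, ← hx, sub_eq_zero]
    exact (AdicCompletion.evalₐ_of _ n x).symm
  · intro n x hx
    rw [mem_pow_iff k k' I hI, can_eq] at hx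
    exact Ideal.Quotient.eq_zero_iff_mem.mp ((AdicCompletion.evalₐ_of _ n x).symm.trans hx)

end Completion

end Groth.Agent.Ega4late.H526.CBC
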