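import Groth.Agent.CalgB.PowSerMap
import Groth.Agent.Localalg.Kunz
import Groth.Agent.Ega41.MvPS
import Mathlib.RingTheory.Flat.FaithfullyFlat.Algebra

/-!
# `k[[T_1, …, T_n]] → k'[[T_1, …, T_n]]` is faithfully flat
-/

set_option autoImplicit false
universe u

open IsLocalRing

namespace Groth.Agent.Ega4late.H526.PowFlat

variable (k k' : Type*) [Field k] [Field k'] [Algebra k k'] (d : ℕ)

theorem algebraMap_X (i : Fin d) : algebraMap (MvPowerSeries (Fin d) k) (MvPowerSeries (Fin d) k')
    (MvPowerSeries.X i) = MvPowerSeries.X i := by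
  rw [MvPowerSeries.algebraMap_apply'', MvPowerSeries.map_X]

theorem isLocalHom : IsLocalHom (algebraMap (MvPowerSeries (Fin d) k) (MvPowerSeries (Fin d) k')) := by
  constructor
  intro f hf
  rw [MvPowerSeries.isUnit_iff_constantCoeff] at hf ⊢
  rw [MvPowerSeries.algebraMap_apply'', MvPowerSeries.constantCoeff_map] at hf
  rw [isUnit_iff_ne_zero] at hf ⊢
  exact fun h => hf (by rw [h, map_zero])

theorem map_maximalIdeal : (maximalIdeal (MvPowerSeries (Fin d) k)).map
    (algebraMap (MvPowerSeries (Fin d) k) (MvPowerSeries (Fin d) k')) =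
      maximalIdeal (MvPowerSeries (Fin d) k') := by
  rw [Groth.Agent.Ega41.MvPS.maximalIdeal_eq, Groth.Agent.Ega41.MvPS.maximalIdeal_eq,
    Ideal.map_span, ← Set.range_comp]
  congr 2
  funext i
  exact algebraMap_X k k' d i

instance flat : Module.Flat (MvPowerSeries (Fin d) k) (MvPowerSeries (Fin d) k') := by
  have h0 := Groth.Agent.Ega4A.PowReg.isRegularLocalRing_mvPowerSeries k d
  have h0' := Groth.Agent.Ega4A.PowReg.isRegularLocalRing_mvPowerSeries k' d
  have := isLocalHom k k' d
  let rs : List (MvPowerSeries (Fin d) k) := List.ofFn fun i => MvPowerSeries.X i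
  have hrs : Ideal.ofList rs = maximalIdeal (MvPowerSeries (Fin d) k) := by
    rw [Groth.Agent.Ega41.MvPS.maximalIdeal_eq, Ideal.ofList]
    congr 1
    ext x
    simp [rs, List.mem_ofFn]
  refine Groth.Agent.Localalg.Kunz.flat_of_weaklyRegular rs hrs ?_
  rw [← RingTheory.Sequence.isWeaklyRegular_map_algebraMap_iff (MvPowerSeries (Fin d) k') _ rs]
  refine (Groth.Agent.CalgA.RegBasic.isRegular_of_ofList_eq d _ _ (by simp [rs]) ?_ ?_).toIsWeaklyRegular
  · rw [Groth.Agent.CalgB.PowSerMap.ringKrullDim_mvPowerSeries]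
    simp
  · rw [← Ideal.map_ofList, hrs, map_maximalIdeal]

instance faithfullyFlat : Module.FaithfullyFlat (MvPowerSeries (Fin d) k) (MvPowerSeries (Fin d) k') :=
  have := isLocalHom k k' d
  Module.FaithfullyFlat.of_flat_of_isLocalHom

end Groth.Agent.Ega4late.H526.PowFlat
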