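import Groth.Agent.Ega4late.H526.CBCPush
import Groth.Agent.Ega4late.H526.PowFlat
import Groth.Agent.CalgA.AdicLe
import Mathlib.RingTheory.LocalRing.ResidueField.Ideal

/-!
# Completed base changes of finite algebras over power series rings
-/

set_option autoImplicit false
universe u

open TensorProduct IsLocalRing

namespace Groth.Agent.Ega4late.H526.CBCPow

open CBC CBCPush

section Cofinal

variable {k k' C C' : Type u} [Field k] [Field k'] [Algebra k k'] [CommRing C]
  [Algebra k C] [CommRing C'] [Algebra k C'] [Algebra C C']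
  [Algebra k' C'] [IsScalarTower k C C'] [IsScalarTower k k' C'] {I : Ideal C}

/-- Elements of the extension of an ideal `K` of `C ⊗[k] k'` are approximated by elements of `K`. -/
theorem exists_mem_of_mem_map (h : IsCBC k k' I C') (K : Ideal (C ⊗[k] k')) (M : ℕ) (y : C')
    (hy : y ∈ K.map (can k k' C C').toRingHom) :
    ∃ x ∈ K, y - can k k' C C' x ∈ (I.map (algebraMap C C')) ^ M := by
  refine Submodule.span_induction (p := fun y _ => ∃ x ∈ K, y - can k k' C C' x ∈
    (I.map (algebraMap C C')) ^ M) ?_ ?_ ?_ ?_ hy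
  · rintro _ ⟨x, hx, rfl⟩
    refine ⟨x, hx, ?_⟩
    change can k k' C C' x - can k k' C C' x ∈ _
    rw [sub_self]
    exact zero_mem _
  · exact ⟨0, zero_mem _, by simp⟩
  · rintro x y _ _ ⟨a, ha, ha'⟩ ⟨b, hb, hb'⟩
    refine ⟨a + b, add_mem ha hb, ?_⟩
    rw [map_add, add_sub_add_comm]
    exact add_mem ha' hb'
  · rintro r x _ ⟨a, ha, ha'⟩
    obtain ⟨s, hs⟩ := h.surj M r
    refine ⟨s * a, Ideal.mul_mem_left _ _ ha, ?_⟩
    rw [map_mul, smul_eq_mul]
    have : r * x - can k k' C C' s * can k k' C C' a =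
        r * (x - can k k' C C' a) + (r - can k k' C C' s) * can k k' C C' a := by ring
    rw [this]
    exact add_mem (Ideal.mul_mem_left _ _ ha') (Ideal.mul_mem_right _ _ hs)

theorem of_le (h : IsCBC k k' I C') {J : Ideal C} (hJI : J ≤ I) (N : ℕ) (hN : I ^ N ≤ J)
    (hJ : J.FG) : IsCBC k k' J C' := by
  constructor
  · have := h.complete
    exact Groth.Agent.CalgA.AdicLe.isAdicComplete_of_le (J := I.map (algebraMap C C'))
      (Ideal.map_mono hJI) (hJ.map _)
  · intro n y
    obtain ⟨x, hx⟩ := h.surj (N * n) y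
    refine ⟨x, ?_⟩
    rw [pow_mul] at hx
    refine Ideal.pow_right_mono ?_ n hx
    rw [← Ideal.map_pow]
    exact Ideal.map_mono hN
  · intro n x hx
    rw [← map_can k k' J C', ← Ideal.map_pow] at hx
    obtain ⟨a, ha, ha'⟩ := exists_mem_of_mem_map h _ (N * n) _ hx
    rw [← map_sub] at ha'
    have h1 := h.inj _ _ ha'
    have h2 : x - a ∈ (J.map (algebraMap C (C ⊗[k] k'))) ^ n := by
      rw [pow_mul] at h1
      refine Ideal.pow_right_mono ?_ n h1
      rw [← Ideal.map_pow]
      exact Ideal.map_mono hN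
    have := add_mem h2 ha
    simpa using this

end Cofinal

section Pow

variable (k k' : Type u) [Field k] [Field k'] [Algebra k k'] (d : ℕ)

instance : IsScalarTower k (MvPowerSeries (Fin d) k) (MvPowerSeries (Fin d) k') :=
  IsScalarTower.of_algebraMap_eq fun x => by
    rw [MvPowerSeries.algebraMap_apply'', MvPowerSeries.algebraMap_apply,
      MvPowerSeries.algebraMap_apply]
    simp

instance : IsScalarTower k k' (MvPowerSeries (Fin d) k') :=
  IsScalarTower.of_algebraMap_eq fun x => by
    rw [MvPowerSeries.algebraMap_apply, MvPowerSeries.algebraMap_apply]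
    simp

theorem coe_mem_range (P : MvPolynomial (Fin d) k') :
    (P : MvPowerSeries (Fin d) k') ∈
      (can k k' (MvPowerSeries (Fin d) k) (MvPowerSeries (Fin d) k')).range := by
  induction P using MvPolynomial.induction_on with
  | C a =>
    refine ⟨1 ⊗ₜ a, ?_⟩
    change can k k' _ _ _ = _
    rw [can_includeRight, MvPolynomial.coe_C, MvPowerSeries.algebraMap_apply]
    simp
  | add p q hp hq =>
    rw [MvPolynomial.coe_add]
    exact add_mem hp hq
  | mul_X p i hp =>
    rw [MvPolynomial.coe_mul, MvPolynomial.coe_X]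
    refine mul_mem hp ⟨MvPowerSeries.X i ⊗ₜ 1, ?_⟩
    change can k k' _ _ _ = _
    rw [can_includeLeft, PowFlat.algebraMap_X]

theorem surj (n : ℕ) (y : MvPowerSeries (Fin d) k') : ∃ x : MvPowerSeries (Fin d) k ⊗[k] k',
    y - can k k' _ _ x ∈ ((maximalIdeal (MvPowerSeries (Fin d) k)).map
      (algebraMap (MvPowerSeries (Fin d) k) (MvPowerSeries (Fin d) k'))) ^ n := by
  obtain ⟨x, hx⟩ := coe_mem_range k k' d (MvPowerSeries.truncTotal n y)
  refine ⟨x, ?_⟩
  change can k k' _ _ x = _ at hx
  rw [hx, PowFlat.map_maximalIdeal, Groth.Agent.Ega41.MvPS.maximalIdeal_eq]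
  exact Groth.Agent.Ega41.MvPS.sub_truncTotal_mem n y

end Pow

section Main

variable (k k' : Type u) [Field k] [Field k'] [Algebra k k'] (d : ℕ)

/-- A finite local algebra over `k[[T]]`: its maximal ideal has a power generated by `T`. -/
theorem exists_pow_le (A : Type u) [CommRing A] [IsLocalRing A] [IsNoetherianRing A]
    (B : Type u) [CommRing B] [IsLocalRing B] [Algebra B A] [Module.Finite B A] :
    ∃ N, maximalIdeal A ^ N ≤ (maximalIdeal B).map (algebraMap B A) := by
  set J := (maximalIdeal B).map (algebraMap B A) with hJ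
  have hrad : maximalIdeal A ≤ J.radical := by
    rw [Ideal.radical_eq_sInf]
    refine le_sInf ?_
    rintro P ⟨hP, hPp⟩
    have h1 : maximalIdeal B ≤ P.comap (algebraMap B A) := Ideal.map_le_iff_le_comap.mp hP
    have h2 : P.comap (algebraMap B A) = maximalIdeal B :=
      ((maximalIdeal.isMaximal B).eq_of_le (Ideal.comap_ne_top _ hPp.ne_top) h1).symm
    have h3 : (P.comap (algebraMap B A)).IsMaximal := by rw [h2]; infer_instance
    have h4 : P.IsMaximal := Ideal.isMaximal_of_isIntegral_of_isMaximal_comap P h3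
    exact (IsLocalRing.eq_maximalIdeal h4).ge
  exact Ideal.exists_pow_le_of_le_radical_of_fg hrad (maximalIdeal A).fg_of_isNoetherianRing

variable (A : Type u) [CommRing A] [IsLocalRing A] [IsNoetherianRing A] [Algebra k A]
  [Algebra (MvPowerSeries (Fin d) k) A] [IsScalarTower k (MvPowerSeries (Fin d) k) A]
  [Module.Finite (MvPowerSeries (Fin d) k) A] [IsLocalHom (algebraMap (MvPowerSeries (Fin d) k) A)]

attribute [local instance] Algebra.TensorProduct.rightAlgebra

/-- The completed base change of a finite local algebra over `k[[T]]` is its base change to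
`k'[[T]]`. -/
theorem exists_ringEquiv :
    ∃ Φ : (A ⊗[MvPowerSeries (Fin d) k] (MvPowerSeries (Fin d) k')) ≃+*
        AdicCompletion ((maximalIdeal A).map
          (Algebra.TensorProduct.includeLeft : A →ₐ[k] A ⊗[k] k')) (A ⊗[k] k'),
      (∀ a : A, Φ (a ⊗ₜ 1) = algebraMap (A ⊗[k] k') _ (a ⊗ₜ 1)) ∧
      (∀ c : k', Φ (1 ⊗ₜ (algebraMap k' (MvPowerSeries (Fin d) k') c)) =
        algebraMap (A ⊗[k] k') _ (1 ⊗ₜ c)) := by
  let C' := Cpl k k' (maximalIdeal A)
  have hB : IsLocalRing (MvPowerSeries (Fin d) k) := inferInstance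
  set J := (maximalIdeal (MvPowerSeries (Fin d) k)).map (algebraMap (MvPowerSeries (Fin d) k) A)
    with hJ
  obtain ⟨N, hN⟩ := exists_pow_le A (MvPowerSeries (Fin d) k)
  have hJle : J ≤ maximalIdeal A :=
    ((local_hom_TFAE (algebraMap (MvPowerSeries (Fin d) k) A)).out 0 2).mp ‹_›
  have hC : IsCBC k k' J C' := of_le (isCBC_cpl k k' (maximalIdeal A)
    (maximalIdeal A).fg_of_isNoetherianRing) hJle N hN J.fg_of_isNoetherianRing
  have hcomp := hC.complete
  let x : Fin d → C' := fun i => algebraMap A C' (algebraMap (MvPowerSeries (Fin d) k) A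
    (MvPowerSeries.X i))
  have hx : ∀ i, x i ∈ J.map (algebraMap A C') := fun i => by
    refine Ideal.mem_map_of_mem _ (Ideal.mem_map_of_mem _ ?_)
    rw [Groth.Agent.Ega41.MvPS.maximalIdeal_eq]
    exact Ideal.subset_span ⟨i, rfl⟩
  let ψ : MvPowerSeries (Fin d) k' →ₐ[k'] C' :=
    Groth.Agent.Ega41.PowEval.powEval (J.map (algebraMap A C')) x hx
  let _ : Algebra (MvPowerSeries (Fin d) k') C' := ψ.toRingHom.toAlgebra
  have t1 : IsScalarTower k' (MvPowerSeries (Fin d) k') C' :=
    IsScalarTower.of_algebraMap_eq fun c => (ψ.commutes c).symm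
  have t2 : IsScalarTower (MvPowerSeries (Fin d) k) A C' := IsScalarTower.of_algebraMap_eq fun _ => rfl
  have t3 : IsScalarTower (MvPowerSeries (Fin d) k) (MvPowerSeries (Fin d) k') C' := by
    refine IsScalarTower.of_algebraMap_eq' ?_
    refine Groth.Agent.CalgB.PowSerMap.ringHom_ext (J.map (algebraMap A C')) _ _ hx ?_ ?_
    · intro i
      rw [RingHom.comp_apply, PowFlat.algebraMap_X]
      exact (Groth.Agent.Ega41.PowEval.powEval_X _ x hx i).symm
    · intro r
      rw [RingHom.comp_apply, MvPowerSeries.algebraMap_apply'', MvPowerSeries.map_C]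
      have h1 : algebraMap (MvPowerSeries (Fin d) k) C' (MvPowerSeries.C r) = algebraMap k C' r := by
        change algebraMap A C' (algebraMap (MvPowerSeries (Fin d) k) A (MvPowerSeries.C r)) = _
        have : (MvPowerSeries.C r : MvPowerSeries (Fin d) k) = algebraMap k _ r := by
          rw [MvPowerSeries.algebraMap_apply]; simp
        rw [this, ← IsScalarTower.algebraMap_apply k (MvPowerSeries (Fin d) k) A,
          ← IsScalarTower.algebraMap_apply k A C']
      rw [h1, IsScalarTower.algebraMap_apply k k' C']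
      exact (Groth.Agent.Ega41.PowEval.powEval_C _ x hx _).symm
  have hcB : IsAdicComplete ((maximalIdeal (MvPowerSeries (Fin d) k)).map
      (algebraMap (MvPowerSeries (Fin d) k) (MvPowerSeries (Fin d) k'))) (MvPowerSeries (Fin d) k') := by
    rw [PowFlat.map_maximalIdeal]
    exact Groth.Agent.Ega41.MvPS.isAdicComplete_maximalIdeal k'
  have hnoeth : IsNoetherianRing (MvPowerSeries (Fin d) k') := by
    have := Groth.Agent.Ega4A.PowReg.isRegularLocalRing_mvPowerSeries k' d
    infer_instance
  have hbij := theta_bijective (k := k) (k' := k') (B := MvPowerSeries (Fin d) k) (C := A)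
    (B' := MvPowerSeries (Fin d) k') (C' := C')
    (maximalIdeal (MvPowerSeries (Fin d) k)) hcB (surj k k' d) hC
  let Φ : (A ⊗[MvPowerSeries (Fin d) k] (MvPowerSeries (Fin d) k')) ≃+* C' :=
    (Algebra.TensorProduct.comm (MvPowerSeries (Fin d) k) A
      (MvPowerSeries (Fin d) k')).toRingEquiv.trans
      (RingEquiv.ofBijective (theta (MvPowerSeries (Fin d) k) A (MvPowerSeries (Fin d) k') C').toRingHom
        hbij)
  refine ⟨Φ, ?_, ?_⟩
  · intro a
    change theta (MvPowerSeries (Fin d) k) A (MvPowerSeries (Fin d) k') C' (1 ⊗ₜ a) = _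
    rw [theta, Algebra.TensorProduct.lift_tmul, map_one, one_mul]
    rfl
  · intro c
    change theta (MvPowerSeries (Fin d) k) A (MvPowerSeries (Fin d) k') C'
      (algebraMap k' (MvPowerSeries (Fin d) k') c ⊗ₜ 1) = _
    rw [theta, Algebra.TensorProduct.lift_tmul, map_one, mul_one]
    change algebraMap (MvPowerSeries (Fin d) k') C' (algebraMap k' (MvPowerSeries (Fin d) k') c) = _
    rw [← IsScalarTower.algebraMap_apply k' (MvPowerSeries (Fin d) k') C']
    rfl

end Main

end Groth.Agent.Ega4late.H526.CBCPow
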