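import Groth.Agent.Ega4late.H526.CBC
import Mathlib.RingTheory.TensorProduct.Finite

/-!
# Completed base changes and finite maps: `C ⊗̂_k k' = C ⊗_B (B ⊗̂_k k')`
-/

set_option autoImplicit false
universe u

open TensorProduct

namespace Groth.Agent.Ega4late.H526.CBCPush

open CBC

variable {k k' B C B' C' : Type u} [Field k] [Field k'] [Algebra k k'] [CommRing B] [CommRing C]
  [CommRing B'] [CommRing C'] [Algebra k B] [Algebra k C] [Algebra B C] [IsScalarTower k B C]
  [Algebra k B'] [Algebra k' B'] [Algebra B B'] [IsScalarTower k B B'] [IsScalarTower k k' B']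
  [Algebra k C'] [Algebra k' C'] [Algebra C C'] [IsScalarTower k C C'] [IsScalarTower k k' C']
  [Algebra B' C'] [IsScalarTower k' B' C'] [Algebra B C'] [IsScalarTower B B' C']
  [IsScalarTower B C C']

variable (k k' B C B' C') in
/-- The map `B' ⊗[B] C → C'`. -/
noncomputable def theta : B' ⊗[B] C →ₐ[B'] C' :=
  Algebra.TensorProduct.lift (Algebra.ofId B' C') (IsScalarTower.toAlgHom B C C')
    (fun _ _ => Commute.all _ _)

variable (k k' B C B') in
/-- The map `C ⊗[k] k' → B' ⊗[B] C`. -/
noncomputable def gmap : C ⊗[k] k' →+* B' ⊗[B] C :=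
  let _ : Algebra k (B' ⊗[B] C) := ((algebraMap B (B' ⊗[B] C)).comp (algebraMap k B)).toAlgebra
  (Algebra.TensorProduct.productMap (R := k)
    ({ (Algebra.TensorProduct.includeRight : C →ₐ[B] B' ⊗[B] C).toRingHom with
        commutes' := fun r => by
          change (Algebra.TensorProduct.includeRight : C →ₐ[B] B' ⊗[B] C) (algebraMap k C r) = _
          rw [IsScalarTower.algebraMap_apply k B C, AlgHom.commutes]
          rfl } : C →ₐ[k] B' ⊗[B] C)
    ({ (algebraMap B' (B' ⊗[B] C)).comp (algebraMap k' B') with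
        commutes' := fun r => by
          change algebraMap B' (B' ⊗[B] C) (algebraMap k' B' (algebraMap k k' r)) = _
          rw [← IsScalarTower.algebraMap_apply k k' B', IsScalarTower.algebraMap_apply k B B',
            ← IsScalarTower.algebraMap_apply B B' (B' ⊗[B] C)]
          rfl } : k' →ₐ[k] B' ⊗[B] C)).toRingHom

theorem gmap_tmul (c : C) (x : k') :
    gmap k k' B C B' (c ⊗ₜ x) = (algebraMap k' B' x) ⊗ₜ[B] c := by
  let _ : Algebra k (B' ⊗[B] C) := ((algebraMap B (B' ⊗[B] C)).comp (algebraMap k B)).toAlgebra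
  change (1 ⊗ₜ[B] c) * ((algebraMap k' B' x) ⊗ₜ[B] 1) = _
  simp

theorem theta_gmap (x : C ⊗[k] k') :
    theta B C B' C' (gmap k k' B C B' x) = can k k' C C' x := by
  induction x with
  | zero => simp
  | add x y hx hy => rw [map_add, map_add, map_add, hx, hy]
  | tmul c x =>
    rw [gmap_tmul, theta, Algebra.TensorProduct.lift_tmul]
    simp only [can, Algebra.TensorProduct.productMap_apply_tmul, IsScalarTower.coe_toAlgHom',
      Algebra.ofId_apply, ← IsScalarTower.algebraMap_apply k' B' C']
    rw [mul_comm]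

theorem gmap_map (z : B ⊗[k] k') :
    gmap k k' B C B' (Algebra.TensorProduct.map (IsScalarTower.toAlgHom k B C) (AlgHom.id k k') z) =
      algebraMap B' (B' ⊗[B] C) (can k k' B B' z) := by
  induction z with
  | zero => simp
  | add x y hx hy => rw [map_add, map_add, map_add, map_add, hx, hy]
  | tmul b x =>
    rw [Algebra.TensorProduct.map_tmul, gmap_tmul]
    simp only [can, Algebra.TensorProduct.productMap_apply_tmul, IsScalarTower.coe_toAlgHom',
      AlgHom.coe_id, id_eq, Algebra.TensorProduct.algebraMap_apply, Algebra.algebraMap_self,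
      RingHom.id_apply]
    rw [Algebra.algebraMap_eq_smul_one (A := C), TensorProduct.tmul_smul, TensorProduct.smul_tmul',
      Algebra.smul_def]

theorem map_gmap_le (I : Ideal B) :
    ((I.map (algebraMap B C)).map (algebraMap C (C ⊗[k] k'))).map (gmap k k' B C B') =
      I.map (algebraMap B (B' ⊗[B] C)) := by
  rw [Ideal.map_map, Ideal.map_map]
  congr 1
  ext b
  simp only [RingHom.comp_apply]
  change gmap k k' B C B' (algebraMap B C b ⊗ₜ 1) = _
  rw [gmap_tmul, map_one, Algebra.algebraMap_eq_smul_one (A := C), TensorProduct.tmul_smul,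
    Algebra.algebraMap_eq_smul_one (A := B' ⊗[B] C)]
  rfl

/-- Every element of `B' ⊗[B] C` is congruent to an element of `C ⊗[k] k'` modulo powers of `I`. -/
theorem exists_sub_mem (I : Ideal B)
    (hB : ∀ (n : ℕ) (y : B'), ∃ x : B ⊗[k] k', y - can k k' B B' x ∈ (I.map (algebraMap B B')) ^ n)
    (n : ℕ) (e : B' ⊗[B] C) :
    ∃ x : C ⊗[k] k', e - gmap k k' B C B' x ∈ (I.map (algebraMap B (B' ⊗[B] C))) ^ n := by
  induction e with
  | zero => exact ⟨0, by simp⟩
  | add x y hx hy =>
    obtain ⟨a, ha⟩ := hx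
    obtain ⟨b, hb⟩ := hy
    refine ⟨a + b, ?_⟩
    rw [map_add, add_sub_add_comm]
    exact add_mem ha hb
  | tmul b' c =>
    obtain ⟨z, hz⟩ := hB n b'
    refine ⟨Algebra.TensorProduct.map (IsScalarTower.toAlgHom k B C) (AlgHom.id k k') z *
      (c ⊗ₜ 1), ?_⟩
    rw [map_mul, gmap_map, gmap_tmul, map_one]
    have h1 : b' ⊗ₜ[B] c - algebraMap B' (B' ⊗[B] C) (can k k' B B' z) * (1 ⊗ₜ[B] c) =
        algebraMap B' (B' ⊗[B] C) (b' - can k k' B B' z) * (1 ⊗ₜ[B] c) := by
      rw [map_sub, sub_mul]
      congr 1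
      simp [Algebra.TensorProduct.algebraMap_apply]
    rw [h1]
    refine Ideal.mul_mem_right _ _ ?_
    have h2 := Ideal.mem_map_of_mem (algebraMap B' (B' ⊗[B] C)) hz
    rwa [Ideal.map_pow, Ideal.map_map, ← IsScalarTower.algebraMap_eq B B' (B' ⊗[B] C)] at h2

theorem theta_bijective [Module.Finite B C] [IsNoetherianRing B'] (I : Ideal B)
    (hBc : IsAdicComplete (I.map (algebraMap B B')) B')
    (hB : ∀ (n : ℕ) (y : B'), ∃ x : B ⊗[k] k', y - can k k' B B' x ∈ (I.map (algebraMap B B')) ^ n)
    (hC : IsCBC k k' (I.map (algebraMap B C)) C') :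
    Function.Bijective (theta B C B' C') := by
  have hE0 : IsAdicComplete (I.map (algebraMap B B')) (B' ⊗[B] C) :=
    Groth.Agent.FormalA.AdicFin.isAdicComplete_of_finite _
  have hmm : (I.map (algebraMap B B')).map (algebraMap B' (B' ⊗[B] C)) =
      I.map (algebraMap B (B' ⊗[B] C)) := by
    rw [Ideal.map_map, ← IsScalarTower.algebraMap_eq]
  have hE : IsAdicComplete (I.map (algebraMap B (B' ⊗[B] C))) (B' ⊗[B] C) := by
    rw [← hmm]
    exact (IsAdicComplete.map_algebraMap_iff _ _).mpr hE0
  have hIC : (I.map (algebraMap B (B' ⊗[B] C))).map (theta B C B' C').toRingHom =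
      (I.map (algebraMap B C)).map (algebraMap C C') := by
    rw [Ideal.map_map, Ideal.map_map, ← IsScalarTower.algebraMap_eq]
    congr 1
    ext b
    simp only [RingHom.comp_apply, IsScalarTower.algebraMap_apply B B' (B' ⊗[B] C)]
    change theta B C B' C' _ = _
    rw [AlgHom.commutes, ← IsScalarTower.algebraMap_apply]
  constructor
  · rw [injective_iff_map_eq_zero]
    intro e he
    apply hE.haus
    intro n
    rw [SModEq.zero, smul_eq_mul, Ideal.mul_top]
    obtain ⟨x, hx⟩ := exists_sub_mem I hB n e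
    have h1 : can k k' C C' x ∈ ((I.map (algebraMap B C)).map (algebraMap C C')) ^ n := by
      rw [← theta_gmap (B := B) (B' := B')]
      have h2 := Ideal.mem_map_of_mem (theta B C B' C').toRingHom hx
      rw [Ideal.map_pow, hIC] at h2
      have h3 : (theta B C B' C').toRingHom (e - gmap k k' B C B' x) =
          - theta B C B' C' (gmap k k' B C B' x) := by
        change theta B C B' C' (e - gmap k k' B C B' x) = _
        rw [map_sub, he, zero_sub]
      rw [h3] at h2
      exact neg_mem_iff.mp h2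
    have h4 := hC.inj n x h1
    have h5 := Ideal.mem_map_of_mem (gmap k k' B C B') h4
    rw [Ideal.map_pow, map_gmap_le] at h5
    have := add_mem hx h5
    simpa using this
  · have := hC.complete
    have hprec : IsPrecomplete (I.map (algebraMap B (B' ⊗[B] C))) (B' ⊗[B] C) := inferInstance
    have hhaus : IsHausdorff ((I.map (algebraMap B (B' ⊗[B] C))).map (theta B C B' C').toRingHom) C' := by
      rw [hIC]; infer_instance
    refine surjective_of_mk_map_comp_surjective (I := I.map (algebraMap B (B' ⊗[B] C)))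
      (theta B C B' C').toRingHom ?_
    intro y
    obtain ⟨y, rfl⟩ := Ideal.Quotient.mk_surjective y
    obtain ⟨x, hx⟩ := hC.surj 1 y
    rw [pow_one] at hx
    refine ⟨gmap k k' B C B' x, ?_⟩
    rw [RingHom.comp_apply, Ideal.Quotient.eq, hIC]
    change theta B C B' C' _ - y ∈ _
    rw [theta_gmap, ← neg_sub]
    exact neg_mem hx

theorem isPushout [Module.Finite B C] [IsNoetherianRing B'] (I : Ideal B)
    (hBc : IsAdicComplete (I.map (algebraMap B B')) B')
    (hB : ∀ (n : ℕ) (y : B'), ∃ x : B ⊗[k] k', y - can k k' B B' x ∈ (I.map (algebraMap B B')) ^ n)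
    (hC : IsCBC k k' (I.map (algebraMap B C)) C') :
    Algebra.IsPushout B B' C C' := by
  have h := theta_bijective I hBc hB hC
  constructor
  refine IsBaseChange.of_equiv (LinearEquiv.ofBijective (theta B C B' C').toLinearMap h) ?_
  intro c
  simp [theta]

end Groth.Agent.Ega4late.H526.CBCPush
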